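import Groth.Agent.Old.H26.SectLen

/-!
# Restrictions of a coherent module on `P^1_X` to the sections `0` and `∞`
-/

set_option autoImplicit false
universe u v w

open CategoryTheory CategoryTheory.Limits AlgebraicGeometry TopologicalSpace Pointwise

namespace Groth.Agent.Old.H26.CohP1

open Groth.Agent.CycB Groth.Agent.CycB.LocQuot Groth.Agent.CycB.PtClosure
  Groth.Agent.CycB.P1Fibre Groth.Agent.CycB.P1Chart Groth.Agent.CycB.DivFun
  Groth.Agent.CycB.StalkLen

section General

variable {X P : Scheme.{u}}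

/-- If `F_{σ(y)} ≠ 0` then `(σ^* F)_y ≠ 0` for a closed immersion with locally principal ideal. -/
theorem nontrivial_pullback (σ : X ⟶ P) [IsClosedImmersion σ] (F : P.Modules) (hF : Coh.IsCoh F)
    (y : X) (t : P.presheaf.stalk (σ y))
    (ht : RingHom.ker (σ.stalkMap y).hom = Ideal.span {t})
    (h : Nontrivial (F.presheaf.stalk (σ y))) :
    Nontrivial (((Scheme.Modules.pullback σ).obj F).presheaf.stalk y) := by
  by_contra hcon
  rw [not_nontrivial_iff_subsingleton] at hcon
  have h1 := GysinLen.length_stalk_pullback_closed σ y t ht F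
  rw [Module.length_eq_zero] at h1
  have h2 : Subsingleton (F.presheaf.stalk (σ y) ⧸
      t • (⊤ : Submodule (P.presheaf.stalk (σ y)) (F.presheaf.stalk (σ y)))) :=
    Module.length_eq_zero_iff.1 h1.symm
  rw [Submodule.Quotient.subsingleton_iff] at h2
  have hfin := CohStalk.finite_stalk F hF (σ y)
  have htm : t ∈ IsLocalRing.maximalIdeal (P.presheaf.stalk (σ y)) := by
    rw [IsLocalRing.mem_maximalIdeal, mem_nonunits_iff]
    intro hu
    have h3 : (σ.stalkMap y).hom t = 0 := by
      have : t ∈ RingHom.ker (σ.stalkMap y).hom := by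
        rw [ht]; exact Ideal.mem_span_singleton_self t
      exact this
    have h4 := hu.map (σ.stalkMap y).hom
    rw [h3] at h4
    exact not_isUnit_zero h4
  have h5 : (⊤ : Submodule (P.presheaf.stalk (σ y)) (F.presheaf.stalk (σ y))) = ⊥ := by
    refine Submodule.eq_bot_of_le_smul_of_le_jacobson_bot
      (IsLocalRing.maximalIdeal (P.presheaf.stalk (σ y))) ⊤ hfin.fg_top ?_
      (IsLocalRing.maximalIdeal_le_jacobson _)
    calc (⊤ : Submodule (P.presheaf.stalk (σ y)) (F.presheaf.stalk (σ y)))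
        = t • ⊤ := h2.symm
      _ = Ideal.span {t} • ⊤ := (Submodule.ideal_span_singleton_smul t ⊤).symm
      _ ≤ _ := Submodule.smul_mono_left (by rwa [Ideal.span_singleton_le_iff_mem])
  obtain ⟨a, b, hab⟩ := h.exists_pair_ne
  apply hab
  have ha : a ∈ (⊤ : Submodule (P.presheaf.stalk (σ y)) (F.presheaf.stalk (σ y))) := trivial
  have hb : b ∈ (⊤ : Submodule (P.presheaf.stalk (σ y)) (F.presheaf.stalk (σ y))) := trivial
  rw [h5, Submodule.mem_bot] at ha hb
  rw [ha, hb]

/-- The cycle of the restriction of a coherent module along a section with locally principal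
ideal. -/
theorem sheafFun_pullback [IsLocallyNoetherian P] {δ : X → ℤ} {δP : P → ℤ}
    (hδP : Cyc.IsDimFun P δP) (σ : X ⟶ P) [IsClosedImmersion σ] (hσδ : ∀ x, δP (σ x) = δ x)
    (hσ : ∀ x, ∃ t, RingHom.ker (σ.stalkMap x).hom = Ideal.span {t}) (k : ℤ)
    (F : P.Modules) (hF : Coh.IsCoh F)
    (hsupp : ∀ p : P, Nontrivial (F.presheaf.stalk p) → δP p ≤ k + 1)
    (h0 : ∀ x : X, Nontrivial (((Scheme.Modules.pullback σ).obj F).presheaf.stalk x) → δ x ≤ k)
    (hemb : ∀ p : P, IsAssociatedPrime (IsLocalRing.maximalIdeal (P.presheaf.stalk p))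
      (F.presheaf.stalk p) → p ∉ Set.range ⇑σ ∨ δP p < k) (x : X) :
    Cyc.sheafFun δ k ((Scheme.Modules.pullback σ).obj F) x =
      ∑ᶠ p : P, Cyc.sheafFun δP (k + 1) F p *
        Cyc.subschemeFun δ k (pullback.snd (ptClι p) σ) x := by
  classical
  by_cases hx : δ x = k
  · obtain ⟨t, ht⟩ := hσ x
    have hfin := CohStalk.finite_stalk F hF (σ x)
    have hx' : δP (σ x) = k := by rw [hσδ, hx]
    rw [Cyc.sheafFun, if_pos hx, GysinLen.length_stalk_pullback_closed σ x t ht F]
    refine SectLen.length_quot_eq hδP σ k hx hx' (F.presheaf.stalk (σ x)) ?_ t ht ?_ _ ?_ ?_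
    · intro ξ h hs
      rw [mem_support_stalk_iff F hF.1 h] at hs
      exact hsupp ξ hs
    · intro ξ h hass
      have hs : primeOf h ∈ Module.support (P.presheaf.stalk (σ x)) (F.presheaf.stalk (σ x)) := by
        rw [Module.support_eq_zeroLocus]
        exact fun a ha => hass.annihilator_le (by rwa [Submodule.annihilator_top])
      have hs' := (mem_support_stalk_iff F hF.1 h).1 hs
      by_cases hξ : ξ = σ x
      · subst hξ
        have e : (primeOf h).asIdeal = IsLocalRing.maximalIdeal (P.presheaf.stalk (σ x)) := by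
          rw [primeOf_refl]
          rfl
        rw [e] at hass
        rcases hemb _ hass with h2 | h2
        · exact h2
        · omega
      · rintro ⟨y, rfl⟩
        have h3 := lt_of_specializes hδP h hξ
        obtain ⟨t', ht'⟩ := hσ y
        have h4 := h0 y (nontrivial_pullback σ F hF y t' ht' hs')
        rw [hσδ, hσδ] at h3
        omega
    · intro ξ hne
      by_contra hcon
      apply hne
      rw [Cyc.sheafFun, if_neg hcon]
    · intro ξ h hξ
      rw [Cyc.sheafFun, if_pos hξ, locLen_stalk F hF.1 h]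
  · rw [Cyc.sheafFun, if_neg hx]
    symm
    apply finsum_eq_zero_of_forall_eq_zero
    intro p
    rw [CycA.DivMult.subschemeFun_eq_zero_of_ne _ δ k x hx, mul_zero]

end General

section P1

variable {X : Scheme.{u}} {δ : X → ℤ}

theorem exists_ker_eq_span (i : Fin (1 + 1)) (x : X) :
    ∃ t, RingHom.ker ((P1.sect X i).stalkMap x).hom = Ideal.span {t} := by
  obtain ⟨b, hb⟩ := CycA.P1Sect.exists_fromSpecStalk_eq_pt X i x
  exact ⟨b, (CycA.P1Sect.Coord.mk b hb).ker_eq⟩

theorem ratEquiv_fibres (hX : Cyc.IsSetup X δ) (δP : ↥(CohB1.ProjSpaceOver 1 X) → ℤ)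
    (hP : Cyc.DeltaCompat (CohB1.ProjSpaceOver.toBase 1 X) δP δ) (k : ℤ)
    (F : (CohB1.ProjSpaceOver 1 X).Modules) (hF : Coh.IsCoh F)
    (hsupp : ∀ p : ↥(CohB1.ProjSpaceOver 1 X), Nontrivial (F.presheaf.stalk p) → δP p ≤ k + 1)
    (h0 : ∀ i, ∀ x : X,
      Nontrivial (((Scheme.Modules.pullback (P1.sect X i)).obj F).presheaf.stalk x) → δ x ≤ k)
    (hemb : ∀ p : ↥(CohB1.ProjSpaceOver 1 X),
      IsAssociatedPrime (IsLocalRing.maximalIdeal ((CohB1.ProjSpaceOver 1 X).presheaf.stalk p))
        (F.presheaf.stalk p) → (∀ i, p ∉ Set.range ⇑(P1.sect X i)) ∨ δP p < k)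
    (α β : AlgebraicCycle X ℤ)
    (hα : ⇑α = Cyc.sheafFun δ k ((Scheme.Modules.pullback (P1.sect X 0)).obj F))
    (hβ : ⇑β = Cyc.sheafFun δ k ((Scheme.Modules.pullback (P1.sect X 1)).obj F)) :
    Cyc.RatEquiv δ k α β := by
  have : IsLocallyNoetherian X := hX.1
  have hprop : IsProper (CohB1.ProjSpaceOver.toBase 1 X) :=
      Groth.Agent.Ega3B.ProjProper.isProper_toBase 1 X
  have hPs : Cyc.IsSetup (CohB1.ProjSpaceOver 1 X) δP :=
    SetupLft.isSetup_of_deltaCompat (CohB1.ProjSpaceOver.toBase 1 X) hX hP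
  have : IsLocallyNoetherian (CohB1.ProjSpaceOver 1 X) := hPs.1
  have key : ∀ i : Fin (1 + 1), ∀ x,
      Cyc.sheafFun δ k ((Scheme.Modules.pullback (P1.sect X i)).obj F) x =
      ∑ᶠ p : ↥(CohB1.ProjSpaceOver 1 X), Cyc.sheafFun δP (k + 1) F p *
        Cyc.subschemeFun δ k (pullback.snd (ptClι p) (P1.sect X i)) x := fun i x =>
    sheafFun_pullback hPs.2.2 (P1.sect X i) (fun x => CycA.SectPt.delta_sect hP i x)
      (exists_ker_eq_span i) k F hF hsupp (h0 i) (fun p hp => (hemb p hp).imp_left fun h => h i) x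
  refine SumRat.ratEquiv_of_finsum hX δP hP k (Cyc.sheafFun δP (k + 1) F) ?_ ?_ α β
    (fun x => by rw [hα]; exact key 0 x) (fun x => by rw [hβ]; exact key 1 x)
  · intro p hp
    have h1 : δP p = k + 1 := by
      by_contra hcon
      apply hp
      rw [Cyc.sheafFun, if_neg hcon]
    refine ⟨h1, ?_⟩
    rintro i ⟨y, rfl⟩
    have h2 : Nontrivial (F.presheaf.stalk (P1.sect X i y)) := by
      by_contra hcon
      rw [not_nontrivial_iff_subsingleton] at hcon
      apply hp
      rw [Cyc.sheafFun, if_pos h1, Module.length_eq_zero]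
      rfl
    obtain ⟨t, ht⟩ := exists_ker_eq_span i y
    have h3 := h0 i y (nontrivial_pullback (P1.sect X i) F hF y t ht h2)
    rw [CycA.SectPt.delta_sect hP i y] at h1
    omega
  · intro x
    obtain ⟨U, hxU, hfin⟩ := GenPts.exists_finite_genPts hPs hF hsupp x
    refine ⟨U, U.2, hxU, Set.Finite.of_finite_image (f := Subtype.val) ?_
      Subtype.val_injective.injOn⟩
    refine hfin.subset ?_
    rintro _ ⟨p, hpU, rfl⟩
    refine ⟨hpU, ?_, ?_⟩
    · by_contra hcon
      apply p.2
      rw [Cyc.sheafFun, if_neg hcon]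
    · by_contra hcon
      rw [not_nontrivial_iff_subsingleton] at hcon
      apply p.2
      unfold Cyc.sheafFun
      split_ifs
      · rw [Module.length_eq_zero]
        rfl
      · rfl

end P1

end Groth.Agent.Old.H26.CohP1
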