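import Groth.Agent.Old.H26.SumRat
import Groth.Agent.CycB.GenPts

/-!
# Restriction of a module on `P` to a section with principal ideal: local multiplicities
-/

set_option autoImplicit false
universe u v w

open CategoryTheory CategoryTheory.Limits AlgebraicGeometry TopologicalSpace Pointwise

namespace Groth.Agent.Old.H26.SectLen

open Groth.Agent.CycB Groth.Agent.CycB.LocQuot Groth.Agent.CycB.PtClosure
  Groth.Agent.CycB.P1Fibre Groth.Agent.CycB.P1Chart Groth.Agent.CycB.DivFun
  Groth.Agent.CycB.StalkLen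

variable {X P : Scheme.{u}} {δ : X → ℤ} {δP : P → ℤ}

/-- Multiplicity along a section with principal ideal of the closure of a point. -/
theorem subschemeFun_ptCl [IsLocallyNoetherian P] (hδP : Cyc.IsDimFun P δP)
    (σ : X ⟶ P) [IsClosedImmersion σ] (k : ℤ) {x : X}
    (hx : δ x = k) (hx' : δP (σ x) = k) {ξ : P} (h : ξ ⤳ σ x) (hξ : δP ξ = k + 1)
    (t : P.presheaf.stalk (σ x))
    (ht : RingHom.ker (σ.stalkMap x).hom = Ideal.span {t}) (htξ : t ∉ (primeOf h).asIdeal) :
    Cyc.subschemeFun δ k (pullback.snd (ptClι ξ) σ) x =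
      Cyc.ordAt (σ x) ξ h (Cyc.specMap (σ x) ξ h t) := by
  rw [CycA.DivMult.subschemeFun_snd σ (ptClι ξ) δ k x hx, ptClι_genericPoint,
    CycA.StalkIdeal.stalkIdeal_ptIdeal h, ordAt_specMap_eq_ordQ hδP h (by omega) htξ, ordQ,
    primeOf_asIdeal]
  congr 2
  let : Algebra (P.presheaf.stalk (σ x)) (X.presheaf.stalk x) := (σ.stalkMap x).hom.toAlgebra
  have h1 := GysinLen.length_quot_map_eq (B := P.presheaf.stalk (σ x)) (C := X.presheaf.stalk x)
    (σ.stalkMap_surjective x) t ht (RingHom.ker (Cyc.specMap (σ x) ξ h))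
  refine h1.trans ?_
  exact CycA.LenSum.length_coker_quotient _ t

/-- The equation of the section is a nonzerodivisor. -/
theorem injective_smul [IsLocallyNoetherian P] (σ : X ⟶ P) [IsClosedImmersion σ] {x : X}
    (N : Type v) [AddCommGroup N] [Module (P.presheaf.stalk (σ x)) N]
    (t : P.presheaf.stalk (σ x))
    (ht : RingHom.ker (σ.stalkMap x).hom = Ideal.span {t})
    (hemb : ∀ (ξ : P) (h : ξ ⤳ σ x), IsAssociatedPrime (primeOf h).asIdeal N →
      ξ ∉ Set.range ⇑σ) : Function.Injective (fun m : N => t • m) := by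
  change Function.Injective (LinearMap.lsmul (P.presheaf.stalk (σ x)) N t)
  rw [injective_iff_map_eq_zero]
  intro m hm
  by_contra hne
  obtain ⟨q, hq, hle⟩ := exists_le_isAssociatedPrime_of_isNoetherianRing
    (P.presheaf.stalk (σ x)) m hne
  have hqp : q.IsPrime := hq.isPrime
  have hq' := congrArg PrimeSpectrum.asIdeal (primeOf_ptOf (⟨q, hqp⟩ :
    PrimeSpectrum (P.presheaf.stalk (σ x))))
  refine hemb (ptOf ⟨q, hqp⟩) (ptOf_specializes _) (by rw [hq']; exact hq) ?_
  have htq : t ∈ q := hle (by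
    rw [Submodule.mem_colon_singleton, Submodule.mem_bot]
    exact hm)
  rw [CycA.SectPt.mem_range_iff_ker_le σ (ptOf_specializes _), ht, ← primeOf_asIdeal, hq',
    Ideal.span_singleton_le_iff_mem]
  exact htq

/-- The length formula along a section with principal ideal: for `N` finite over `O_{P,σ(x)}`
with support of dimension `≤ 1` whose associated points do not lie on the section. -/
theorem length_quot_eq [IsLocallyNoetherian P] (hδP : Cyc.IsDimFun P δP)
    (σ : X ⟶ P) [IsClosedImmersion σ] (k : ℤ) {x : X}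
    (hx : δ x = k) (hx' : δP (σ x) = k)
    (N : Type v) [AddCommGroup N] [Module (P.presheaf.stalk (σ x)) N]
    [Module.Finite (P.presheaf.stalk (σ x)) N]
    (hdim : ∀ (ξ : P) (h : ξ ⤳ σ x), primeOf h ∈ Module.support (P.presheaf.stalk (σ x)) N →
      δP ξ ≤ k + 1)
    (t : P.presheaf.stalk (σ x))
    (ht : RingHom.ker (σ.stalkMap x).hom = Ideal.span {t})
    (hemb : ∀ (ξ : P) (h : ξ ⤳ σ x), IsAssociatedPrime (primeOf h).asIdeal N →
      ξ ∉ Set.range ⇑σ)
    (m : P → ℤ) (hm0 : ∀ ξ, m ξ ≠ 0 → δP ξ = k + 1)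
    (hm : ∀ (ξ : P) (h : ξ ⤳ σ x), δP ξ = k + 1 → m ξ = ((locLen (primeOf h) N).toNat : ℤ)) :
    ((Module.length (P.presheaf.stalk (σ x))
      (N ⧸ t • (⊤ : Submodule (P.presheaf.stalk (σ x)) N))).toNat : ℤ) =
      ∑ᶠ ξ : P, m ξ * Cyc.subschemeFun δ k (pullback.snd (ptClι ξ) σ) x := by
  classical
  have hinj := injective_smul σ N t ht hemb
  have hdim' : ∀ (ξ : P) (h : ξ ⤳ σ x), primeOf h ∈ Module.support (P.presheaf.stalk (σ x)) N →
      δP ξ ≤ δP (σ x) + 1 := fun ξ h hs => by rw [hx']; exact hdim ξ h hs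
  rw [(length_quot_eq_finsum hδP (σ x) N hdim' t hinj).2]
  refine finsum_congr fun ξ => ?_
  by_cases h : ξ ⤳ σ x ∧ δP (σ x) + 1 = δP ξ
  · rw [dif_pos h]
    have hξ : δP ξ = k + 1 := by rw [← h.2, hx']
    rw [hm ξ h.1 hξ]
    by_cases hs : primeOf h.1 ∈ Module.support (P.presheaf.stalk (σ x)) N
    · have hnot := notMem_primeOf hδP (σ x) N hdim' t hinj h.1 h.2 hs
      rw [subschemeFun_ptCl hδP σ k hx hx' h.1 hξ t ht hnot]
    · rw [← locLen_eq_zero_iff] at hs
      rw [hs]
      simp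
  · rw [dif_neg h]
    symm
    by_cases h1 : ξ ⤳ σ x
    · have h2 : m ξ = 0 := by
        by_contra hne
        exact h ⟨h1, by rw [hm0 ξ hne, hx']⟩
      rw [h2, zero_mul]
    · rw [CycA.DivMult.subschemeFun_eq_zero_of_not_specializes σ (ptClι ξ) δ k x (by
        rwa [ptClι_genericPoint]), mul_zero]

end Groth.Agent.Old.H26.SectLen
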