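import Groth.Agent.CycB.P1Fibre
import Groth.Agent.CycB.PtClosure
import Groth.Agent.CycB.DivFun
import Groth.Agent.CycB.SetupLft
import Groth.Agent.CycB.RatTransport
import Groth.Agent.CycA.DivMult2
import Groth.Agent.CycA.SectPt
import Groth.Agent.CycA.P1Sect
import Groth.Agent.CycB.StalkLen
import Groth.Agent.CycB.GysinLen2
import Groth.Agent.Ega3B.ProjProper

/-!
# Locally finite sums of differences of fibres over `0` and `∞`

`ratEquiv_of_finsum`: if `m` is a function on the points of `P^1_X` with locally finite support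
consisting of points of `δ`-dimension `k + 1` off the two sections then
`∑ m ξ [cl(ξ)_0]_k ∼ ∑ m ξ [cl(ξ)_∞]_k`.
-/

set_option autoImplicit false
universe u v w

open CategoryTheory CategoryTheory.Limits AlgebraicGeometry TopologicalSpace Pointwise

namespace Groth.Agent.Old.H26.SumRat

open Groth.Agent.CycB Groth.Agent.CycB.LocQuot Groth.Agent.CycB.PtClosure
  Groth.Agent.CycB.P1Fibre Groth.Agent.CycB.P1Chart Groth.Agent.CycB.DivFun

variable {X : Scheme.{u}} {δ : X → ℤ}

/-- The difference of the fibres over `0` and `∞` of the closure of one point, explicitly. -/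
theorem exists_divFun (hX : Cyc.IsSetup X δ)
    (δP : ↥(CohB1.ProjSpaceOver 1 X) → ℤ)
    (hP : Cyc.DeltaCompat (CohB1.ProjSpaceOver.toBase 1 X) δP δ) (k : ℤ)
    (p : ↥(CohB1.ProjSpaceOver 1 X)) (hp : δP p = k + 1)
    (h0 : ∀ i, p ∉ Set.range ⇑(P1.sect X i)) :
    (∀ x, Cyc.subschemeFun δ k (pullback.snd (ptClι p) (P1.sect X 0)) x =
      Cyc.subschemeFun δ k (pullback.snd (ptClι p) (P1.sect X 1)) x) ∨
    (δ (CohB1.ProjSpaceOver.toBase 1 X p) = k + 1 ∧
      ∃ f : X.residueField (CohB1.ProjSpaceOver.toBase 1 X p), f ≠ 0 ∧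
        ∀ x, Cyc.divFun δ (CohB1.ProjSpaceOver.toBase 1 X p) f x =
          Cyc.subschemeFun δ k (pullback.snd (ptClι p) (P1.sect X 0)) x -
          Cyc.subschemeFun δ k (pullback.snd (ptClι p) (P1.sect X 1)) x) := by
  have : IsLocallyNoetherian X := hX.1
  let P := CohB1.ProjSpaceOver 1 X
  let π : P ⟶ X := CohB1.ProjSpaceOver.toBase 1 X
  let w : Spec (P.residueField p) ⟶ ptCl p := (P.fromSpecResidueField p).toImage
  have hw : w ≫ ptClι p = P.fromSpecResidueField p := Scheme.Hom.toImage_imageι _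
  have hw' : w (IsLocalRing.closedPoint (P.residueField p)) = genericPoint (ptCl p) := by
    rw [genericPoint_ptCl, ptGen]
    congr 1
    exact Subsingleton.elim (α := PrimeSpectrum (P.residueField p)) _ _
  have hp' : ∀ i, P.fromSpecResidueField p (IsLocalRing.closedPoint (P.residueField p)) ∉
      Set.range (P1.sect X i) := by
    intro i hmem
    have e : P.fromSpecResidueField p (IsLocalRing.closedPoint (P.residueField p)) = p :=
      Scheme.fromSpecResidueField_apply _ _
    exact h0 i (e ▸ hmem)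
  obtain ⟨t, ht0, ht⟩ := exists_pt_of_notMem (K := P.residueField p) (Field.toIsField _)
    (P.fromSpecResidueField p) (IsLocalRing.closedPoint (P.residueField p)) hp'
  let algK : Algebra (X.residueField (π p)) (P.residueField p) :=
    (π.residueFieldMap p).hom.toAlgebra
  have hK : P.fromSpecResidueField p ≫ π = Spec.map (CommRingCat.ofHom
      (algebraMap (X.residueField (π p)) (P.residueField p))) ≫
        X.fromSpecResidueField (π p) := by
    exact (Scheme.Hom.SpecMap_residueFieldMap_fromSpecResidueField π p).symm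
  have hwt : w ≫ ptClι p = pt 0 (Spec.map (CommRingCat.ofHom
      (algebraMap (X.residueField (π p)) (P.residueField p))) ≫
        X.fromSpecResidueField (π p)) t := by
    rw [hw, ← hK]
    exact ht
  by_cases halg : IsAlgebraic (X.residueField (π p)) t
  · right
    have hKalg : Algebra.IsAlgebraic (X.residueField (π p)) (P.residueField p) :=
      isAlgebraic_of_isAlgebraic_coord p rfl t ht halg
    have hδ : δ (π p) = k + 1 := by
      obtain ⟨n, hn, hn'⟩ := hP p
      have h2 : Algebra.trdeg (X.residueField (π p)) (P.residueField p) = 0 := trdeg_eq_zero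
      have h3 : (n : Cardinal) = 0 := hn.symm.trans h2
      have h4 : n = 0 := by exact_mod_cast h3
      rw [h4] at hn'
      rw [← hp]
      simpa using hn'.symm
    have hne : (minpoly (X.residueField (π p)) t).coeff 0 ≠ 0 :=
      minpoly.coeff_zero_ne_zero halg.isIntegral ht0
    have key := GraphMult.divFun_eq_sub (K := P.residueField p) hX.2.2 (ptClι p) w hw' t ht0
      halg.isIntegral hwt k hδ
    exact ⟨hδ, _, hne, key⟩
  · left
    exact subschemeFun_eq_of_transcendental (K := P.residueField p) (δ := δ) (ptClι p) w hw' t ht0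
      halg hwt k

/-- Images of locally finite families under quasi-compact morphisms are locally finite. -/
theorem LocFin.map {P X : Scheme.{u}} (π : P ⟶ X) [QuasiCompact π] {ι : Type*} {ξ : ι → P}
    (h : LocFin ξ) : LocFin (fun i => π (ξ i)) := by
  intro x
  obtain ⟨U, hU, hxU, -⟩ := exists_isAffineOpen_mem_and_subset (X := X) (x := x) (U := ⊤) trivial
  refine ⟨U, U.2, hxU, ?_⟩
  exact h.finite_of_isCompact (π.isCompact_preimage hU.isCompact)

theorem ratEquiv_of_finsum (hX : Cyc.IsSetup X δ)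
    (δP : ↥(CohB1.ProjSpaceOver 1 X) → ℤ)
    (hP : Cyc.DeltaCompat (CohB1.ProjSpaceOver.toBase 1 X) δP δ) (k : ℤ)
    (m : ↥(CohB1.ProjSpaceOver 1 X) → ℤ)
    (hm : ∀ p, m p ≠ 0 → δP p = k + 1 ∧ ∀ i, p ∉ Set.range ⇑(P1.sect X i))
    (hfin : LocFin (fun p : {p // m p ≠ 0} => p.1))
    (α β : AlgebraicCycle X ℤ)
    (hα : ∀ x, α x = ∑ᶠ p, m p *
      Cyc.subschemeFun δ k (pullback.snd (ptClι p) (P1.sect X 0)) x)
    (hβ : ∀ x, β x = ∑ᶠ p, m p *
      Cyc.subschemeFun δ k (pullback.snd (ptClι p) (P1.sect X 1)) x) :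
    Cyc.RatEquiv δ k α β := by
  classical
  have : IsLocallyNoetherian X := hX.1
  let P := CohB1.ProjSpaceOver 1 X
  let π : P ⟶ X := CohB1.ProjSpaceOver.toBase 1 X
  have key := fun p : {p // m p ≠ 0} => exists_divFun hX δP hP k p.1 (hm p.1 p.2).1 (hm p.1 p.2).2
  let A : Set {p // m p ≠ 0} := {p | δ (CohB1.ProjSpaceOver.toBase 1 X p.1) = k + 1 ∧
      ∃ f : X.residueField (CohB1.ProjSpaceOver.toBase 1 X p.1), f ≠ 0 ∧
        ∀ x, Cyc.divFun δ (CohB1.ProjSpaceOver.toBase 1 X p.1) f x =
          Cyc.subschemeFun δ k (pullback.snd (ptClι p.1) (P1.sect X 0)) x -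
          Cyc.subschemeFun δ k (pullback.snd (ptClι p.1) (P1.sect X 1)) x}
  have hA : ∀ p : {p // m p ≠ 0}, p ∉ A →
      (∀ x, Cyc.subschemeFun δ k (pullback.snd (ptClι p.1) (P1.sect X 0)) x =
      Cyc.subschemeFun δ k (pullback.snd (ptClι p.1) (P1.sect X 1)) x) := fun p hp =>
    (key p).resolve_right hp
  choose f hf0 hf using fun p : A => p.2.2
  have hqc : QuasiCompact π := by
    have : IsProper (CohB1.ProjSpaceOver.toBase 1 X) :=
      Groth.Agent.Ega3B.ProjProper.isProper_toBase 1 X
    change QuasiCompact (CohB1.ProjSpaceOver.toBase 1 X)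
    infer_instance
  have hloc : LocFin (fun p : A => π p.1.1) :=
    LocFin.map π (DivFun.LocFin.comp hfin (g := fun p : A => p.1) Subtype.val_injective)
  -- the multiplicities of the fibres vanish outside a finite set of points
  have hsupp : ∀ (i : Fin (1 + 1)) (x : X), (Function.support fun p => m p *
      Cyc.subschemeFun δ k (pullback.snd (ptClι p) (P1.sect X i)) x).Finite := by
    intro i x
    refine ((hfin.finite_specializes (P1.sect X i x)).image (fun p => p.1)).subset ?_
    intro p hp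
    have h1 : m p ≠ 0 := left_ne_zero_of_mul hp
    have h2 : Cyc.subschemeFun δ k (pullback.snd (ptClι p) (P1.sect X i)) x ≠ 0 :=
      right_ne_zero_of_mul hp
    refine ⟨⟨p, h1⟩, ?_, rfl⟩
    by_contra hcon
    apply h2
    apply CycA.DivMult.subschemeFun_eq_zero_of_not_specializes
    rw [ptClι_genericPoint]
    exact hcon
  refine ratEquivZero_of (ι := A) (fun p => π p.1.1) (fun p => f p ^ m p.1.1)
    (fun p => p.2.1) (fun p => zpow_ne_zero _ (hf0 p)) hloc _ ?_
  intro x
  change α x - β x = _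
  rw [hα, hβ, ← finsum_sub_distrib (hsupp 0 x) (hsupp 1 x)]
  have e1 : ∀ p, m p * Cyc.subschemeFun δ k (pullback.snd (ptClι p) (P1.sect X 0)) x -
      m p * Cyc.subschemeFun δ k (pullback.snd (ptClι p) (P1.sect X 1)) x =
      m p * (Cyc.subschemeFun δ k (pullback.snd (ptClι p) (P1.sect X 0)) x -
        Cyc.subschemeFun δ k (pullback.snd (ptClι p) (P1.sect X 1)) x) := fun p => by ring
  simp only [e1]
  rw [← RatTransport.finsum_subtype_eq (fun p => m p ≠ 0) (fun p => m p *
    (Cyc.subschemeFun δ k (pullback.snd (ptClι p) (P1.sect X 0)) x -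
        Cyc.subschemeFun δ k (pullback.snd (ptClι p) (P1.sect X 1)) x))
    (fun p hp => by rw [not_not.1 hp, zero_mul]),
    ← RatTransport.finsum_subtype_eq (fun p => p ∈ A) (fun p : {p // m p ≠ 0} => m p.1 *
    (Cyc.subschemeFun δ k (pullback.snd (ptClι p.1) (P1.sect X 0)) x -
        Cyc.subschemeFun δ k (pullback.snd (ptClι p.1) (P1.sect X 1)) x))
    (fun p hp => by rw [hA p hp x, sub_self, mul_zero])]
  refine finsum_congr fun p => ?_
  rw [OrdFrac.divFun_zpow]
  have h5 := hf p x
  change _ = m p.1.1 * Cyc.divFun δ (π p.1.1) (f p) x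
  rw [← h5]

end Groth.Agent.Old.H26.SumRat
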